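import Mathlib
import Cfsg.Prelude.Def_Blocks
import Cfsg.Agent.Lib.Helper77.ResField

/-!
# The residue field at a `p`-modular maximal ideal of the algebraic integers is algebraically closed
(helper65, piece AC of S4607 for helper74)
-/

set_option autoImplicit false

namespace Cfsg.Agent.Lib.Helper65

open Cfsg Cfsg.Agent.Lib.Helper78 Cfsg.Agent.Lib.Helper77

variable (M : Ideal AlgInt) [hP : M.IsPrime]

/-- The inclusion of the algebraic integers in the local ring at `M`. -/
def algIntToRloc : AlgInt →+* Rloc M where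
  toFun a := ⟨(a : ℂ), memLocalRing_algInt hP a⟩
  map_one' := rfl
  map_mul' _ _ := rfl
  map_zero' := rfl
  map_add' _ _ := rfl

/-- Reduction of algebraic integers modulo `M`, with values in the residue field of the local
ring. -/
noncomputable def algIntToResF : AlgInt →+* ResF M := (resMap M).comp (algIntToRloc M)

theorem algIntToResF_surjective (hmax : M.IsMaximal) : Function.Surjective (algIntToResF M) := by
  intro y
  obtain ⟨z, rfl⟩ := resMap_surjective M y
  obtain ⟨a, b, hb, hz⟩ := z.2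
  -- `b` is invertible modulo `M`
  obtain ⟨c, hc⟩ : ∃ c : AlgInt, b * c - 1 ∈ M := by
    obtain ⟨c, i, hi, hc⟩ := hmax.exists_inv hb
    refine ⟨c, ?_⟩
    have : b * c - 1 = -i := by rw [← hc]; ring
    rw [this]
    exact M.neg_mem hi
  refine ⟨a * c, ?_⟩
  have hb0 : (b : ℂ) ≠ 0 := coe_ne_zero_of_not_mem hb
  show resMap M (algIntToRloc M (a * c)) = resMap M z
  rw [← sub_eq_zero, ← map_sub, resMap_eq_zero_iff]
  refine ⟨a * (b * c - 1), b, M.mul_mem_left _ hc, hb, ?_⟩
  have : (((algIntToRloc M (a * c) - z : Rloc M)) : ℂ) = (a : ℂ) * (c : ℂ) - (a : ℂ) / (b : ℂ) := by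
    rw [hz]; rfl
  rw [this]
  push_cast
  field_simp

theorem isAlgClosed_resF {p : ℕ} (M : Ideal Cfsg.AlgInt) [hP : M.IsPrime]
    (hM : Cfsg.IsPModular p M) : IsAlgClosed (Cfsg.Agent.Lib.Helper77.ResF M) := by
  apply IsAlgClosed.of_exists_root
  intro q hq hirr
  have hsurj := algIntToResF_surjective M hM.2.1
  have hl : q ∈ Polynomial.lifts (algIntToResF M) := by
    rw [Polynomial.mem_lifts]
    exact Polynomial.map_surjective _ hsurj q
  obtain ⟨Q, hQ, hdeg, hQm⟩ := Polynomial.lifts_and_natDegree_eq_and_monic hl hq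
  have hd : (Q.map (algebraMap AlgInt ℂ)).degree ≠ 0 := by
    rw [hQm.degree_map]
    intro h0
    have h1 : Q.natDegree = 0 := Polynomial.natDegree_eq_of_degree_eq_some h0
    rw [hdeg] at h1
    exact hirr.natDegree_pos.ne' h1
  obtain ⟨z, hz⟩ := IsAlgClosed.exists_root _ hd
  have hz' : Polynomial.eval₂ (algebraMap AlgInt ℂ) z Q = 0 := by
    rw [Polynomial.IsRoot.def, Polynomial.eval_map] at hz
    exact hz
  have hint : IsIntegral AlgInt z := ⟨Q, hQm, hz'⟩
  have hintZ : IsIntegral ℤ z := isIntegral_trans z hint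
  let w : AlgInt := ⟨z, hintZ⟩
  have hw : Q.eval w = 0 := by
    apply Subtype.ext
    have h2 : ((Q.eval w : AlgInt) : ℂ) = Polynomial.eval₂ (algebraMap AlgInt ℂ) z Q := by
      have := Polynomial.hom_eval₂ Q (RingHom.id AlgInt) (algebraMap AlgInt ℂ) w
      rw [RingHom.comp_id] at this
      exact this
    rw [h2, hz']
    rfl
  refine ⟨algIntToResF M w, ?_⟩
  rw [← hQ, Polynomial.eval_map, Polynomial.eval₂_hom, hw, map_zero]

end Cfsg.Agent.Lib.Helper65
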